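import Cfsg.Agent.LieClassical.HermSiegel

/-!
# S5719, `PSU₄(q)`, `q` even: the involutions of `SU₄(q)` are Siegel transformations (helper715 for helper361)
-/

set_option autoImplicit false
set_option linter.unusedSectionVars false

namespace Cfsg.Agent.H715.IFU

open Cfsg Cfsg.Agent.LieClassical.HermBasic Cfsg.Agent.LieClassical.HermSiegel

section Nil

variable {F : Type*} [Field F] [Fintype F] {q n : ℕ}

/-- `g - 1` -/
def nil (g : SU n F q) (v : Fin n → F) : Fin n → F := act g v - v

theorem nil_add (g : SU n F q) (v w : Fin n → F) : nil g (v + w) = nil g v + nil g w := by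
  rw [nil, nil, nil, act_add]
  abel

theorem nil_smul (g : SU n F q) (c : F) (v : Fin n → F) : nil g (c • v) = c • nil g v := by
  rw [nil, nil, act_smul, smul_sub]

theorem two_smul_zero (h2 : (2 : F) = 0) (v : Fin n → F) : v + v = 0 := by
  funext i
  show v i + v i = 0
  rw [← two_mul, h2, zero_mul]

theorem add_self (h2 : (2 : F) = 0) (x : F) : x + x = 0 := by
  rw [← two_mul, h2, zero_mul]

theorem neg_eq (h2 : (2 : F) = 0) (x : F) : -x = x := by
  linear_combination (-x) * h2

variable {g : SU n F q} (h2 : (2 : F) = 0) (hg : g * g = 1)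

include h2 hg in
theorem nil_nil (v : Fin n → F) : nil g (nil g v) = 0 := by
  have h1 : act g (act g v) = v := by rw [← act_mul, hg, act_one]
  have h3 : nil g (nil g v) = (v + v) - (act g v + act g v) := by
    rw [nil, nil, act_sub, h1]
    abel
  rw [h3, two_smul_zero h2, two_smul_zero h2, sub_zero]

include hg in
theorem herm_nil_left (hF : Fintype.card F = q ^ 2) (x y : Fin n → F) :
    hermForm n F q (nil g x) y = hermForm n F q x (nil g y) := by
  have h1 : g⁻¹ = g := inv_eq_of_mul_eq_one_right hg
  rw [nil, nil, herm_sub_left, herm_sub_right hF, herm_act_left, h1]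

include h2 hg in
theorem herm_nil_nil (hF : Fintype.card F = q ^ 2) (x y : Fin n → F) :
    hermForm n F q (nil g x) (nil g y) = 0 := by
  rw [← herm_nil_left hg hF, nil_nil h2 hg, herm_zero_left]

include hg in
/-- the form `h(x, N y)` is hermitian -/
theorem herm_nil_swap (hF : Fintype.card F = q ^ 2) (x y : Fin n → F) :
    hermForm n F q x (nil g y) = hermForm n F q y (nil g x) ^ q := by
  rw [← herm_nil_left hg hF, herm_swap hF]

end Nil

section Four

variable {F : Type*} [Field F] [Fintype F] {q : ℕ}

theorem rank_one (hF : Fintype.card F = q ^ 2) (h2 : (2 : F) = 0) {g : SU 4 F q} (hg : g * g = 1) {y0 : Fin 4 → F}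
    (h0 : nil g y0 ≠ 0) (hr : ∀ y, ∃ c : F, nil g y = c • nil g y0) :
    ∃ (e : Fin 4 → F) (μ : F) (h : IsSiegel q e 0 μ), e ≠ 0 ∧ g = siegel hF e 0 μ h := by
  choose f hf using hr
  set e := nil g y0 with he
  obtain ⟨x, hx⟩ := exists_herm_ne_zero hF h0
  -- normalise
  have hx' : hermForm 4 F q x e ≠ 0 := fun h => hx (herm_eq_zero_swap hF h)
  set x1 : Fin 4 → F := (hermForm 4 F q x e)⁻¹ • x with hx1
  have hx1e : hermForm 4 F q x1 e = 1 := by rw [hx1, herm_smul_left, inv_mul_cancel₀ hx']
  have hex1 : hermForm 4 F q e x1 = 1 := by rw [herm_swap hF, hx1e, one_pow]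
  have key : ∀ x y, f y ^ q * hermForm 4 F q x e = f x * hermForm 4 F q e y := by
    intro x y
    have h1 := herm_nil_left hg hF x y
    rw [hf x, hf y, herm_smul_left, herm_smul_right] at h1
    exact h1.symm
  have hfy : ∀ y, f y = f x1 ^ q * hermForm 4 F q y e := by
    intro y
    have h1 := key x1 y
    rw [hx1e, mul_one] at h1
    have h3 := congrArg (fun z : F => z ^ q) h1
    simp only [pow_q_pow_q hF, mul_pow, ← herm_swap hF] at h3
    exact h3
  have hμ : f x1 ^ q = f x1 := by
    have h1 := key x1 x1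
    rwa [hx1e, hex1, mul_one, mul_one] at h1
  refine ⟨e, f x1, ⟨?_, herm_zero_left _, ?_⟩, h0, ?_⟩
  · exact herm_nil_nil h2 hg hF y0 y0
  · rw [hμ, herm_zero_left, add_zero, add_self h2]
  · apply ext_act
    intro y
    rw [act_siegel, smul_zero, add_zero, herm_zero_right hF, sub_zero]
    have h1 := hf y
    rw [hfy y, hμ, nil, sub_eq_iff_eq_add'] at h1
    exact h1

theorem rank_two (hF : Fintype.card F = q ^ 2) (h2 : (2 : F) = 0) {g : SU 4 F q} (hg : g * g = 1) {x0 x1 : Fin 4 → F}
    (hk : hermForm 4 F q x0 (nil g x0) = 0) (hl : LinearIndependent F ![nil g x0, nil g x1]) :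
    ∃ (e w : Fin 4 → F) (h : IsSiegel q e w 0), LinearIndependent F ![e, w] ∧ g = siegel hF e w 0 h := by
  rw [LinearIndependent.pair_iff] at hl
  -- a basis
  have hli : LinearIndependent F ![x0, x1, nil g x0, nil g x1] := by
    rw [Fintype.linearIndependent_iff]
    intro c hc
    rw [Fin.sum_univ_four] at hc
    simp only [Matrix.cons_val_zero, Matrix.cons_val_one, Matrix.cons_val] at hc
    have h1 := congrArg (nil g) hc
    rw [nil_add, nil_add, nil_add, nil_smul, nil_smul, nil_smul, nil_smul, nil_nil h2 hg, nil_nil h2 hg, smul_zero,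
      smul_zero, add_zero, add_zero] at h1
    have h3 : nil g (0 : Fin 4 → F) = 0 := by rw [nil, act_zero, sub_zero]
    rw [h3] at h1
    obtain ⟨h4, h5⟩ := hl _ _ h1
    rw [h4, h5, zero_smul, zero_smul, zero_add, zero_add] at hc
    obtain ⟨h6, h7⟩ := hl _ _ hc
    intro i
    fin_cases i
    · exact h4
    · exact h5
    · exact h6
    · exact h7
  have hspan : ∀ y : Fin 4 → F, ∃ a b c d : F, y = a • x0 + b • x1 + c • nil g x0 + d • nil g x1 := by
    intro y
    have h1 := hli.span_eq_top_of_card_eq_finrank (by rw [Fintype.card_fin, Module.finrank_fin_fun])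
    have h3 : y ∈ Submodule.span F (Set.range ![x0, x1, nil g x0, nil g x1]) := by rw [h1]; exact Submodule.mem_top
    rw [Submodule.mem_span_range_iff_exists_fun] at h3
    obtain ⟨c, hc⟩ := h3
    rw [Fin.sum_univ_four] at hc
    exact ⟨c 0, c 1, c 2, c 3, hc.symm⟩
  set e := nil g x0 with he
  have he0 : e ≠ 0 := by
    intro h
    have := (hl 1 0 (by rw [h, smul_zero, zero_smul, zero_add])).1
    exact one_ne_zero this
  set c := hermForm 4 F q x1 e with hc
  have hee : hermForm 4 F q e e = 0 := herm_nil_nil h2 hg hF _ _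
  have hne : hermForm 4 F q (nil g x1) e = 0 := herm_nil_nil h2 hg hF _ _
  have hc0 : c ≠ 0 := by
    intro h0
    obtain ⟨v, hv⟩ := exists_herm_ne_zero hF he0
    apply hv
    apply herm_eq_zero_swap hF
    obtain ⟨a, b, c', d, rfl⟩ := hspan v
    rw [herm_add_left, herm_add_left, herm_add_left, herm_smul_left, herm_smul_left, herm_smul_left, herm_smul_left,
      hk, ← hc, h0, hee, hne]
    ring
  have hcq : c ^ q ≠ 0 := pow_ne_zero _ hc0
  -- the number `β`
  obtain ⟨γ, hγ⟩ := exists_trace_eq hF (c := hermForm 4 F q x1 (nil g x1)) (by rw [← herm_nil_swap hg hF])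
  set β := γ / c ^ q with hβ
  have hβc : β * c ^ q = γ := by rw [hβ, div_mul_cancel₀ _ hcq]
  have hβc' : β ^ q * c = γ ^ q := by
    rw [← hβc, mul_pow, pow_q_pow_q hF]
  set w : Fin 4 → F := c⁻¹ • (nil g x1 + β • e) with hw
  have hx0w : hermForm 4 F q x0 w = 1 := by
    rw [hw, herm_smul_right, herm_add_right hF, herm_smul_right, hk, mul_zero, add_zero, herm_nil_swap hg hF, ← he, ← hc,
      inv_pow, inv_mul_cancel₀ hcq]
  have hx1w : hermForm 4 F q x1 w = β := by
    rw [hw, herm_smul_right, herm_add_right hF, herm_smul_right, ← hc, hβc', ← hγ, add_assoc, add_self h2, add_zero,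
      inv_pow, ← hβc, mul_comm β, inv_mul_cancel_left₀ hcq]
  have hnw : ∀ y, hermForm 4 F q (nil g y) w = 0 := by
    intro y
    rw [hw, herm_smul_right, herm_add_right hF, herm_smul_right, he, herm_nil_nil h2 hg hF, herm_nil_nil h2 hg hF]
    ring
  have hwe : hermForm 4 F q w e = 0 := by
    apply herm_eq_zero_swap hF
    exact hnw x0
  have hww : hermForm 4 F q w w = 0 := by
    conv_lhs => rw [hw]
    rw [herm_smul_left, herm_add_left, herm_smul_left, hnw, he, hnw]
    ring
  refine ⟨e, w, ⟨hee, hwe, by rw [hww, zero_pow_q hF]; ring⟩, ?_, ?_⟩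
  · rw [LinearIndependent.pair_iff]
    intro s t hst
    have h1 : (s + t * (c⁻¹ * β)) • e + (t * c⁻¹) • nil g x1 = 0 := by
      rw [← hst, hw]
      module
    obtain ⟨h3, h4⟩ := hl _ _ h1
    have h5 : t = 0 := by
      rcases mul_eq_zero.1 h4 with h | h
      · exact h
      · exact absurd h (inv_ne_zero hc0)
    rw [h5, zero_mul, add_zero] at h3
    exact ⟨h3, h5⟩
  · apply ext_act
    intro y
    rw [act_siegel, zero_mul, zero_sub]
    have hcw : c • w = nil g x1 + β • e := by
      rw [hw, smul_smul, mul_inv_cancel₀ hc0, one_smul]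
    have h1 : nil g y = hermForm 4 F q y e • w + (-hermForm 4 F q y w) • e := by
      rw [neg_eq h2]
      obtain ⟨a, b, c', d, rfl⟩ := hspan y
      have e1 : hermForm 4 F q (a • x0 + b • x1 + c' • e + d • nil g x1) e = b * c := by
        rw [herm_add_left, herm_add_left, herm_add_left, herm_smul_left, herm_smul_left, herm_smul_left, herm_smul_left,
          hk, ← hc, hee, hne]
        ring
      have e2 : hermForm 4 F q (a • x0 + b • x1 + c' • e + d • nil g x1) w = a + b * β := by
        rw [herm_add_left, herm_add_left, herm_add_left, herm_smul_left, herm_smul_left, herm_smul_left, herm_smul_left,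
          hx0w, hx1w, he, hnw, hnw]
        ring
      have e3 : nil g (a • x0 + b • x1 + c' • e + d • nil g x1) = a • e + b • nil g x1 := by
        rw [nil_add, nil_add, nil_add, nil_smul, nil_smul, nil_smul, nil_smul, he, nil_nil h2 hg, nil_nil h2 hg, smul_zero,
          smul_zero, add_zero, add_zero]
      rw [e1, e2, e3, mul_smul, hcw]
      have h4 : (b * β) • e + (b * β) • e = 0 := two_smul_zero h2 _
      calc a • e + b • nil g x1 = a • e + b • nil g x1 + ((b * β) • e + (b * β) • e) := by rw [h4, add_zero]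
        _ = _ := by module
    rw [nil, sub_eq_iff_eq_add'] at h1
    rw [h1]
    abel

/-- **Involutions of `SU₄(q)`, `q` even.** -/
theorem inv_siegel (hF : Fintype.card F = q ^ 2) (h2 : (2 : F) = 0) (g : SU 4 F q) (hg : g * g = 1) (hg1 : g ≠ 1) :
    (∃ (e : Fin 4 → F) (μ : F) (h : IsSiegel q e 0 μ), e ≠ 0 ∧ g = siegel hF e 0 μ h) ∨
    (∃ (e w : Fin 4 → F) (h : IsSiegel q e w 0), LinearIndependent F ![e, w] ∧ g = siegel hF e w 0 h) := by
  obtain ⟨y0, h0⟩ : ∃ y0, nil g y0 ≠ 0 := by
    by_contra hcon
    push Not at hcon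
    apply hg1
    apply ext_act
    intro v
    rw [act_one]
    exact sub_eq_zero.1 (hcon v)
  by_cases hr : ∀ y, ∃ c : F, nil g y = c • nil g y0
  · exact Or.inl (rank_one hF h2 hg h0 hr)
  · right
    push Not at hr
    obtain ⟨y1, hy1⟩ := hr
    have hl : LinearIndependent F ![nil g y0, nil g y1] := by
      rw [LinearIndependent.pair_iff]
      intro s t hst
      have ht : t = 0 := by
        by_contra ht
        apply hy1 (-(t⁻¹ * s))
        have h1 : t • nil g y1 = -(s • nil g y0) := by
          rw [eq_neg_iff_add_eq_zero, add_comm]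
          exact hst
        calc nil g y1 = t⁻¹ • (t • nil g y1) := by rw [smul_smul, inv_mul_cancel₀ ht, one_smul]
          _ = _ := by rw [h1]; module
      rw [ht, zero_smul, add_zero] at hst
      exact ⟨(smul_eq_zero.1 hst).resolve_right h0, ht⟩
    by_cases hk : hermForm 4 F q y0 (nil g y0) = 0
    · exact rank_two hF h2 hg hk hl
    · -- make `y1` orthogonal to `y0`
      set a := hermForm 4 F q y0 (nil g y0) with ha
      have haq : a ^ q = a := (herm_nil_swap hg hF y0 y0).symm
      set s := hermForm 4 F q y1 (nil g y0) / a with hs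
      set z : Fin 4 → F := y1 - s • y0 with hz
      have hzy : hermForm 4 F q z (nil g y0) = 0 := by
        rw [hz, herm_sub_left, herm_smul_left, ← ha, hs, div_mul_cancel₀ _ hk, sub_self]
      have hyz : hermForm 4 F q y0 (nil g z) = 0 := by
        rw [herm_nil_swap hg hF, hzy, zero_pow_q hF]
      set b := hermForm 4 F q z (nil g z) with hb
      have hbq : b ^ q = b := (herm_nil_swap hg hF z z).symm
      obtain ⟨t, ht⟩ := exists_norm_eq hF (c := b / a) (by rw [div_pow, hbq, haq])
      have hx0 : hermForm 4 F q (z + t • y0) (nil g (z + t • y0)) = 0 := by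
        rw [nil_add, nil_smul, herm_add_left, herm_add_right hF, herm_add_right hF, herm_smul_left, herm_smul_left,
          herm_smul_right, herm_smul_right, hzy, hyz, ← ha, ← hb]
        have h1 : t * (t ^ q * a) = b := by
          rw [← mul_assoc, ht, div_mul_cancel₀ _ hk]
        rw [mul_zero, add_zero, mul_zero, zero_add, h1, add_self h2]
      refine rank_two hF h2 hg (x1 := y0) hx0 ?_
      rw [LinearIndependent.pair_iff] at hl ⊢
      intro u v huv
      have h1 : (v + u * (t - s)) • nil g y0 + u • nil g y1 = 0 := by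
        have e1 : nil g z = nil g y1 + (-s) • nil g y0 := by
          rw [hz, sub_eq_add_neg, ← neg_smul, nil_add, nil_smul]
        rw [nil_add, nil_smul, e1] at huv
        rw [← huv]
        module
      obtain ⟨h3, h4⟩ := hl _ _ h1
      rw [h4, zero_mul, add_zero] at h3
      exact ⟨h4, h3⟩

end Four

end Cfsg.Agent.H715.IFU
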