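import Cfsg.Agent.H838.IF.Defs
import Cfsg.Agent.H950.UHerm

/-!
# S5719, `PSU₄(q)`: the number of conjugates of an involution with nondegenerate eigenspaces (W1a, helper715)

* `card_one` : the number of vectors of norm one of a nondegenerate subspace;
* `card_pair` : the number of orthonormal pairs;
* `card_plane` : the number of nondegenerate planes of a hermitian space of dimension four;
* `cls_neg` : W1a.
-/

set_option autoImplicit false
set_option linter.unusedSectionVars false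

namespace Cfsg.Agent.H715.IFU

open Module Subgroup Cfsg Cfsg.Agent.H91.U Cfsg.Agent.H450.UF Cfsg.Agent.H450.Bs Cfsg.Agent.H838.IF

section

variable {F V : Type*} [Field F] [Fintype F] [AddCommGroup V] [Module F V] [FiniteDimensional F V] {σ : F →+* F}
  {B : V →ₛₗ[σ] V →ₗ[F] F} {q : ℕ}

/-- nondegenerate subspace -/
def NDg (B : V →ₛₗ[σ] V →ₗ[F] F) (W : Submodule F V) : Prop := ∀ x ∈ W, (∀ y ∈ W, B x y = 0) → x = 0

theorem card_one (hB : HForm B) (hF : Fintype.card F = q ^ 2) {W : Submodule F V} (hW : NDg B W) :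
    Nat.card {v : V // v ∈ W ∧ B v v = 1} =
      (if Even (finrank F W) then q ^ (finrank F W - 1) * (q ^ finrank F W - 1)
        else q ^ (finrank F W - 1) * (q ^ finrank F W + 1)) := by
  obtain ⟨φ, hφ⟩ := exists_model hF hB
  have hd : finrank F (W.map (φ : V →ₗ[F] (Fin (finrank F V) → F))) = finrank F W := LinearEquiv.finrank_map_eq φ W
  rw [← Cfsg.Agent.H950.card_norm_one_sub hF (W := W.map (φ : V →ₗ[F] (Fin (finrank F V) → F))) ?_ hd]
  · refine Nat.card_congr (Equiv.subtypeEquiv φ.toEquiv fun v => ?_)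
    have h1 : B v v = hermForm (finrank F V) F q (φ v) (φ v) := hφ v v
    have h2 : v ∈ W ↔ φ v ∈ W.map (φ : V →ₗ[F] (Fin (finrank F V) → F)) :=
      (Submodule.mem_map_equiv (e := φ) (p := W) (x := φ v)).symm.trans (by rfl) |>.symm |> fun h => by
        constructor
        · intro hv
          exact ⟨v, hv, rfl⟩
        · rintro ⟨w, hw, he⟩
          rwa [← φ.injective he]
    rw [h1, h2]
    rfl
  · intro u hu hu0
    obtain ⟨x, hx, rfl⟩ := hu
    by_contra hcon
    push Not at hcon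
    apply hu0
    have h1 : x = 0 := by
      apply hW x hx
      intro y hy
      apply hB.swap_zero
      rw [hφ]
      exact hcon _ ⟨y, hy, rfl⟩
    rw [h1]
    exact map_zero φ

/-- the orthogonal complement of a vector of norm one -/
theorem ndg_perp (hB : HForm B) {W : Submodule F V} (hW : NDg B W) {x : V} (hx : x ∈ W) (hxx : B x x = 1) :
    NDg B (W ⊓ LinearMap.ker (B x)) ∧ finrank F (W ⊓ LinearMap.ker (B x) : Submodule F V) + 1 = finrank F W := by
  constructor
  · intro z hz h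
    apply hW z hz.1
    intro w hw
    have h1 : w - B x w • x ∈ W ⊓ LinearMap.ker (B x) := by
      refine ⟨W.sub_mem hw (W.smul_mem _ hx), ?_⟩
      show B x (w - B x w • x) = 0
      rw [map_sub, smul_right', hxx, mul_one, sub_self]
    have h2 := h _ h1
    have h3 : B z x = 0 := hB.swap_zero hz.2
    rw [map_sub, smul_right', h3, mul_zero, sub_zero] at h2
    exact h2
  · have h1 := Module.Dual.finrank_ker_add_one_of_ne_zero (f := (B x).comp W.subtype) (by
      intro h0
      have h2 := LinearMap.congr_fun h0 ⟨x, hx⟩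
      have h3 : B x x = 0 := h2
      rw [hxx] at h3
      exact one_ne_zero h3)
    rw [← h1]
    congr 1
    have h2 : (LinearMap.ker ((B x).comp W.subtype)).map W.subtype = W ⊓ LinearMap.ker (B x) := by
      rw [LinearMap.ker_comp, Submodule.map_comap_subtype]
    rw [← h2]
    exact Submodule.finrank_map_subtype_eq W _

/-- the number of orthonormal pairs -/
theorem card_pair (hB : HForm B) (hF : Fintype.card F = q ^ 2) {W : Submodule F V} (hW : NDg B W) {a b : ℕ}
    (ha : (if Even (finrank F W) then q ^ (finrank F W - 1) * (q ^ finrank F W - 1)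
        else q ^ (finrank F W - 1) * (q ^ finrank F W + 1)) = a)
    (hb : (if Even (finrank F W - 1) then q ^ (finrank F W - 1 - 1) * (q ^ (finrank F W - 1) - 1)
        else q ^ (finrank F W - 1 - 1) * (q ^ (finrank F W - 1) + 1)) = b) :
    Nat.card {p : V × V // (p.1 ∈ W ∧ B p.1 p.1 = 1) ∧ p.2 ∈ W ⊓ LinearMap.ker (B p.1) ∧ B p.2 p.2 = 1} = a * b := by
  have : Finite V := Module.finite_of_finite F
  have e : {p : V × V // (p.1 ∈ W ∧ B p.1 p.1 = 1) ∧ p.2 ∈ W ⊓ LinearMap.ker (B p.1) ∧ B p.2 p.2 = 1} ≃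
      (Σ x : {x : V // x ∈ W ∧ B x x = 1}, {y : V // y ∈ W ⊓ LinearMap.ker (B x.1) ∧ B y y = 1}) :=
    { toFun := fun p => ⟨⟨p.1.1, p.2.1⟩, ⟨p.1.2, p.2.2⟩⟩
      invFun := fun s => ⟨(s.1.1, s.2.1), s.1.2, s.2.2⟩
      left_inv := fun _ => rfl
      right_inv := fun _ => rfl }
  have := Fintype.ofFinite {x : V // x ∈ W ∧ B x x = 1}
  rw [Nat.card_congr e, Nat.card_sigma, Finset.sum_congr rfl (g := fun _ => b), Finset.sum_const, Finset.card_univ,
    ← Nat.card_eq_fintype_card, card_one hB hF hW, ha, smul_eq_mul]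
  intro x _
  obtain ⟨h1, h2⟩ := ndg_perp hB hW x.2.1 x.2.2
  rw [card_one hB hF h1]
  have h3 : finrank F (W ⊓ LinearMap.ker (B x.1) : Submodule F V) = finrank F W - 1 := by omega
  rw [h3, hb]

theorem num_plane {q N : ℕ} (hq : 2 ≤ q) (h : N * ((q * (q ^ 2 - 1)) * (q + 1)) ≤
    (q ^ 3 * (q ^ 4 - 1)) * (q ^ 2 * (q ^ 3 + 1))) : N ≤ q ^ 4 * (q ^ 2 + 1) * (q ^ 2 - q + 1) := by
  obtain ⟨r, rfl⟩ : ∃ r, q = r + 1 := ⟨q - 1, by omega⟩
  have e1 : (r + 1) ^ 2 - 1 = r * (r + 2) := by
    have : (r + 1) ^ 2 = r * (r + 2) + 1 := by ring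
    omega
  have e2 : (r + 1) ^ 4 - 1 = r * (r + 2) * ((r + 1) ^ 2 + 1) := by
    have : (r + 1) ^ 4 = r * (r + 2) * ((r + 1) ^ 2 + 1) + 1 := by ring
    omega
  have e3 : (r + 1) ^ 2 - (r + 1) + 1 = r * (r + 1) + 1 := by
    have : (r + 1) ^ 2 = r * (r + 1) + (r + 1) := by ring
    omega
  rw [e1, e2] at h
  rw [e3]
  have hr : 0 < r := by omega
  have h2 : N * ((r + 1) * (r * (r + 2)) * (r + 2)) ≤
      (r + 1) ^ 4 * ((r + 1) ^ 2 + 1) * (r * (r + 1) + 1) * ((r + 1) * (r * (r + 2)) * (r + 2)) := by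
    calc N * ((r + 1) * (r * (r + 2)) * (r + 2)) = N * ((r + 1) * (r * (r + 2)) * (r + 1 + 1)) := by ring
      _ ≤ _ := h
      _ = _ := by ring
  exact Nat.le_of_mul_le_mul_right h2 (by positivity)

/-- the number of nondegenerate planes -/
theorem card_plane (hB : HForm B) (hF : Fintype.card F = q ^ 2) (hV : finrank F V = 4) :
    Nat.card {P : Submodule F V // NP B P} ≤ q ^ 4 * (q ^ 2 + 1) * (q ^ 2 - q + 1) := by
  classical
  have hfV : Finite V := Module.finite_of_finite F
  have hfin : Finite {P : Submodule F V // NP B P} :=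
    Finite.of_injective (fun P => ((P.1 : Submodule F V) : Set V)) fun P Q h => Subtype.ext (SetLike.coe_injective h)
  apply num_plane (Cfsg.Agent.LieClassical.HermBasic.two_le hF)
  have htop : NDg B (⊤ : Submodule F V) := fun x _ h => hB.eq_zero fun y => h y trivial
  have h4 : finrank F (⊤ : Submodule F V) = 4 := by rw [finrank_top, hV]
  have hD := card_pair hB hF htop (a := q ^ 3 * (q ^ 4 - 1)) (b := q ^ 2 * (q ^ 3 + 1)) (by
    rw [h4, if_pos (by decide)]) (by rw [h4, if_neg (by decide)])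
  rw [← hD]
  have hP : ∀ P : {P : Submodule F V // NP B P}, Nat.card {p : V × V // (p.1 ∈ P.1 ∧ B p.1 p.1 = 1) ∧
      p.2 ∈ P.1 ⊓ LinearMap.ker (B p.1) ∧ B p.2 p.2 = 1} = (q * (q ^ 2 - 1)) * (q + 1) := by
    intro P
    apply card_pair hB hF P.2.nd
    · rw [P.2.dim, if_pos (by decide)]
      norm_num
    · rw [P.2.dim, if_neg (by decide)]
      norm_num
  have := Fintype.ofFinite {P : Submodule F V // NP B P}
  have hS : Nat.card (Σ P : {P : Submodule F V // NP B P}, {p : V × V // (p.1 ∈ P.1 ∧ B p.1 p.1 = 1) ∧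
      p.2 ∈ P.1 ⊓ LinearMap.ker (B p.1) ∧ B p.2 p.2 = 1}) =
      Nat.card {P : Submodule F V // NP B P} * ((q * (q ^ 2 - 1)) * (q + 1)) := by
    rw [Nat.card_sigma, Finset.sum_congr rfl (fun P _ => hP P), Finset.sum_const, Finset.card_univ,
      ← Nat.card_eq_fintype_card, smul_eq_mul]
  rw [← hS]
  refine Nat.card_le_card_of_injective (fun s => ⟨s.2.1, ⟨trivial, s.2.2.1.2⟩, ⟨trivial, s.2.2.2.1.2⟩, s.2.2.2.2⟩) ?_
  rintro ⟨P, p, hp⟩ ⟨Q, p', hp'⟩ h
  have h1 : p = p' := congrArg Subtype.val h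
  subst h1
  have key : ∀ R : {P : Submodule F V // NP B P}, ((p.1 ∈ R.1 ∧ B p.1 p.1 = 1) ∧
      p.2 ∈ R.1 ⊓ LinearMap.ker (B p.1) ∧ B p.2 p.2 = 1) → R.1 = Submodule.span F {p.1, p.2} := by
    intro R hR
    symm
    apply Submodule.eq_of_le_of_finrank_eq
    · rw [Submodule.span_le]
      rintro x (rfl | rfl)
      · exact hR.1.1
      · exact hR.2.1.1
    · rw [R.2.dim]
      have hli : LinearIndependent F ![p.1, p.2] := by
        rw [LinearIndependent.pair_iff]
        intro s t hst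
        have h2 := congrArg (B p.1) hst
        rw [map_add, smul_right', smul_right', hR.1.2, show B p.1 p.2 = 0 from hR.2.1.2, mul_one, mul_zero, add_zero,
          map_zero] at h2
        have h3 := congrArg (B p.2) hst
        rw [map_add, smul_right', smul_right', hR.2.2, hB.swap_zero (show B p.1 p.2 = 0 from hR.2.1.2), mul_one, mul_zero,
          zero_add, map_zero] at h3
        exact ⟨h2, h3⟩
      have h2 := finrank_span_eq_card hli
      rw [Matrix.range_cons, Matrix.range_cons, Matrix.range_empty, Set.union_empty, Set.singleton_union, Fintype.card_fin] at h2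
      exact h2
  have h2 : P = Q := Subtype.ext ((key P hp).trans (key Q hp').symm)
  subst h2
  rfl

theorem Neg.ext (hB : HForm B) {P : Submodule F V} (hP : NP B P) {s t : V ≃ₗ[F] V} (hs : Neg B s P) (ht : Neg B t P) :
    s = t := by
  have hsup : P ⊔ pp B P = ⊤ := by
    have h1 : P ⊓ pp B P = ⊥ := by
      rw [eq_bot_iff]
      rintro x ⟨hx, hx'⟩
      exact hP.nd x hx hx'
    apply Submodule.eq_top_of_finrank_eq
    have h2 := Submodule.finrank_sup_add_finrank_inf_eq P (pp B P)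
    rw [h1, finrank_bot, add_zero] at h2
    have h3 := finrank_pp hB P
    omega
  ext v
  have hv : v ∈ P ⊔ pp B P := by rw [hsup]; trivial
  obtain ⟨x, hx, y, hy, rfl⟩ := Submodule.mem_sup.1 hv
  rw [map_add, map_add, hs.1 x hx, hs.2 y hy, ht.1 x hx, ht.2 y hy]

/-- **W1a** -/
theorem cls_neg (hB : HForm B) (hF : Fintype.card F = q ^ 2) (hV : finrank F V = 4) {P : Submodule F V} (hP : NP B P)
    {t : V ≃ₗ[F] V} (ht : Neg B t P) : cls B t ≤ q ^ 4 * (q ^ 2 + 1) * (q ^ 2 - q + 1) := by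
  classical
  have hfV : Finite V := Module.finite_of_finite F
  have hfin : Finite {P : Submodule F V // NP B P} :=
    Finite.of_injective (fun P => ((P.1 : Submodule F V) : Set V)) fun P Q h => Subtype.ext (SetLike.coe_injective h)
  refine le_trans ?_ (card_plane hB hF hV)
  have hex : ∀ s : {s : V ≃ₗ[F] V | ∃ g ∈ SIso B, s = g * t * g⁻¹}, ∃ Q : {P : Submodule F V // NP B P}, Neg B s.1 Q.1 := by
    rintro ⟨_, g, hg, rfl⟩
    have hgg : ∀ v, g⁻¹ (g v) = v := fun v => g.symm_apply_apply v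
    have hB' : ∀ x y, B (g x) (g y) = B x y := hg.2
    refine ⟨⟨P.map (g : V →ₗ[F] V), ⟨?_, ?_⟩⟩, ?_, ?_⟩
    · rw [LinearEquiv.finrank_map_eq, hP.dim]
    · rintro _ ⟨x, hx, rfl⟩ h
      have h1 : x = 0 := hP.nd x hx fun y hy => by
        rw [← hB']
        exact h _ ⟨y, hy, rfl⟩
      rw [h1]
      exact map_zero g
    · rintro _ ⟨x, hx, rfl⟩
      show g (t (g⁻¹ (g x))) = -(g x)
      rw [hgg, ht.1 x hx, map_neg]
    · intro u hu
      obtain ⟨v, rfl⟩ := g.surjective u
      show g (t (g⁻¹ (g v))) = g v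
      rw [hgg, ht.2 v fun z hz => by rw [← hB']; exact hu _ ⟨z, hz, rfl⟩]
  choose f hf using hex
  refine Nat.card_le_card_of_injective f fun s s' h => Subtype.ext ?_
  have h1 := hf s
  rw [h] at h1
  exact Neg.ext hB (f s').2 h1 (hf s')

end

end Cfsg.Agent.H715.IFU
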